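import Mathlib

/-!
Doubly transitive groups with an involution whose centralizer has constant fixity: the pairs
swapped by the conjugates of the involution show that every element interchanging two points is a
conjugate of it, so the two-point stabilisers are abelian.
-/

set_option autoImplicit false
set_option linter.unusedSectionVars false

namespace CfsgLib.ConstFix57

open MulAction

variable {G Ω : Type*} [Group G] [MulAction G Ω]

/-- The fixed points of an element. -/
def fix (Ω : Type*) {G : Type*} [Group G] [MulAction G Ω] (g : G) : Set Ω := {x | g • x = x}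

theorem mem_fix {g : G} {x : Ω} : x ∈ fix Ω g ↔ g • x = x := Iff.rfl

theorem fix_inv (g : G) : fix Ω g⁻¹ = fix Ω g := by
  ext x
  simp only [mem_fix, inv_smul_eq_iff]
  exact eq_comm

theorem fix_conj (g h : G) : fix Ω (g * h * g⁻¹) = (fun x => g • x) '' fix Ω h := by
  ext x
  simp only [mem_fix, Set.mem_image, mul_smul]
  constructor
  · intro hx
    exact ⟨g⁻¹ • x, by rwa [← eq_inv_smul_iff] at hx, smul_inv_smul g x⟩
  · rintro ⟨y, hy, rfl⟩
    rw [inv_smul_smul, hy]

theorem smul_eq_self_pow {g : G} {x : Ω} (h : g • x = x) (k : ℕ) : g ^ k • x = x := by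
  induction k with
  | zero => rw [pow_zero, one_smul]
  | succ k ih => rw [pow_succ, mul_smul, h, ih]

theorem fix_subset_fix_pow (g : G) (k : ℕ) : fix Ω g ⊆ fix Ω (g ^ k) :=
  fun _ hx => smul_eq_self_pow hx k

/-- The stabiliser of two points. -/
abbrev pairStab (G : Type*) {Ω : Type*} [Group G] [MulAction G Ω] (a b : Ω) : Subgroup G :=
  stabilizer G a ⊓ stabilizer G b

theorem mem_pairStab {a b : Ω} {g : G} : g ∈ pairStab G a b ↔ g • a = a ∧ g • b = b := by
  simp [pairStab, Subgroup.mem_inf, mem_stabilizer_iff]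

/-- The data: a doubly transitive action and an involution `t` such that each non-identity element
of its centralizer fixes exactly `i` points. -/
structure Ctx (G Ω : Type*) [Group G] [MulAction G Ω] where
  pair : ∀ a b c d : Ω, a ≠ b → c ≠ d → ∃ g : G, g • a = c ∧ g • b = d
  faith : ∀ g : G, (∀ x : Ω, g • x = x) → g = 1
  i : ℕ
  t : G
  ord : orderOf t = 2
  card_t : (fix Ω t).ncard = i
  const : ∀ g : G, Commute g t → g ≠ 1 → (fix Ω g).ncard = i

/-- The cardinality of the image of a map that is constant exactly on the left cosets. -/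
theorem card_mul_card_image [Fintype G] {X : Type*} [DecidableEq X] (f : G → X) (H : Subgroup G)
    (hf : ∀ g h : G, f g = f h ↔ g⁻¹ * h ∈ H) :
    Nat.card G = (Finset.univ.image f).card * Nat.card H := by
  classical
  rw [Nat.card_eq_fintype_card, ← Finset.card_univ,
    Finset.card_eq_sum_card_image f Finset.univ,
    Finset.sum_const_nat (m := Nat.card H)]
  intro x hx
  obtain ⟨g, -, rfl⟩ := Finset.mem_image.1 hx
  rw [Nat.card_eq_fintype_card, Fintype.card_subtype]
  refine Finset.card_bij (fun h _ => g⁻¹ * h) (fun h hh => ?_) (fun a _ b _ e => mul_left_cancel e)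
    (fun k hk => ⟨g * k, ?_, by group⟩)
  · rw [Finset.mem_filter] at hh ⊢
    exact ⟨Finset.mem_univ _, (hf g h).1 hh.2.symm⟩
  · rw [Finset.mem_filter] at hk ⊢
    exact ⟨Finset.mem_univ _, ((hf g (g * k)).2 (by rw [inv_mul_cancel_left]; exact hk.2)).symm⟩

namespace Ctx

variable (D : Ctx G Ω)
include D

theorem mul_self : D.t * D.t = 1 := by
  have := pow_orderOf_eq_one D.t
  rwa [D.ord, pow_two] at this

theorem ne_one : D.t ≠ 1 := by
  intro e
  have := D.ord
  rw [e, orderOf_one] at this
  omega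

/-- Every point pair is moved to every other: the action is transitive. -/
theorem exists_smul (a b : Ω) (hn : ∀ c : Ω, ∃ d : Ω, d ≠ c) : ∃ g : G, g • a = b := by
  obtain ⟨c, hc⟩ := hn a
  obtain ⟨d, hd⟩ := hn b
  obtain ⟨g, hg, -⟩ := D.pair a c b d hc.symm hd.symm
  exact ⟨g, hg⟩

theorem exists_moved : ∃ x : Ω, D.t • x ≠ x := by
  by_contra! h
  exact D.ne_one (D.faith _ h)

section Count

variable [Finite G] [Fintype Ω]

theorem i_lt : D.i < Fintype.card Ω := by
  rw [← D.card_t, ← Nat.card_eq_fintype_card, ← Set.ncard_univ]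
  refine Set.ncard_lt_ncard ((Set.ssubset_univ_iff).2 fun h => ?_)
  obtain ⟨x, hx⟩ := D.exists_moved
  exact hx (h ▸ Set.mem_univ x : x ∈ fix Ω D.t)

theorem exists_ne (c : Ω) : ∃ d : Ω, d ≠ c := by
  obtain ⟨x, hx⟩ := D.exists_moved
  by_cases h : x = c
  · exact ⟨D.t • x, h ▸ hx⟩
  · exact ⟨x, h⟩

/-- The group order. -/
theorem card_group {a b : Ω} (hab : a ≠ b) :
    Nat.card G = Fintype.card Ω * (Fintype.card Ω - 1) * Nat.card (pairStab G a b) := by
  classical
  haveI := Fintype.ofFinite G
  rw [card_mul_card_image (fun g : G => (g • a, g • b)) (pairStab G a b)]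
  · congr 1
    have : Finset.univ.image (fun g : G => (g • a, g • b)) =
        (Finset.univ : Finset Ω).offDiag := by
      ext ⟨c, d⟩
      simp only [Finset.mem_image, Finset.mem_univ, true_and, Finset.mem_offDiag, Prod.mk.injEq]
      constructor
      · rintro ⟨g, rfl, rfl⟩
        exact fun e => hab (smul_left_cancel g e)
      · exact fun h => D.pair a b c d hab h
    rw [this, Finset.offDiag_card, Finset.card_univ, Nat.mul_sub, mul_one]
  · intro g h
    rw [Prod.mk.injEq, mem_pairStab, mul_smul, mul_smul, inv_smul_eq_iff, inv_smul_eq_iff]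
    constructor
    · rintro ⟨h1, h2⟩
      exact ⟨h1.symm, h2.symm⟩
    · rintro ⟨h1, h2⟩
      exact ⟨h1.symm, h2.symm⟩

/-- The orbit counting for the centralizer. -/
theorem card_centralizer_dvd :
    Nat.card (Subgroup.centralizer ({D.t} : Set G)) ∣ Fintype.card Ω - D.i := by
  classical
  haveI := Fintype.ofFinite G
  set C := Subgroup.centralizer ({D.t} : Set G) with hC
  have hb := MulAction.sum_card_fixedBy_eq_card_orbits_mul_card_group C Ω
  have hfix : ∀ g : C, g ≠ 1 → Fintype.card (fixedBy Ω g) = D.i := by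
    intro g hg
    rw [← Nat.card_eq_fintype_card, Nat.card_coe_set_eq]
    exact D.const (g : G) (Subgroup.mem_centralizer_singleton_iff.1 g.2)
      (fun e => hg (Subtype.ext e))
  rw [← Finset.add_sum_erase _ _ (Finset.mem_univ (1 : C)),
    Finset.sum_congr rfl (fun g hg => hfix g (Finset.ne_of_mem_erase hg)),
    Finset.sum_const, Finset.card_erase_of_mem (Finset.mem_univ _), Finset.card_univ,
    smul_eq_mul] at hb
  have h1 : Fintype.card (fixedBy Ω (1 : C)) = Fintype.card Ω :=
    Fintype.card_congr (Equiv.subtypeUnivEquiv fun x => one_smul C x)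
  rw [h1] at hb
  have hi := D.i_lt
  have hc : 0 < Fintype.card C := Fintype.card_pos
  rw [Nat.card_eq_fintype_card]
  generalize Fintype.card C = c at hb hc ⊢
  generalize Fintype.card (Quotient (orbitRel C Ω)) = o at hb
  obtain ⟨c', rfl⟩ : ∃ c', c = c' + 1 := ⟨c - 1, by omega⟩
  simp only [Nat.add_sub_cancel] at hb
  refine ⟨o - D.i, ?_⟩
  rw [Nat.mul_sub, mul_comm (c' + 1) o, ← hb]
  rw [add_mul, one_mul]
  omega

/-- Every element interchanging two points is a conjugate of `t`, and the centralizer of `t` has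
order `n - i`. -/
theorem swap_isConj_and_card :
    Nat.card (Subgroup.centralizer ({D.t} : Set G)) = Fintype.card Ω - D.i ∧
      (∀ (g : G) (x y : Ω), x ≠ y → g • x = y → g • y = x → IsConj D.t g) ∧
      ∀ x y : Ω, x ≠ y → ∃ g : G, IsConj D.t g ∧ g • x = y ∧ g • y = x := by
  classical
  haveI := Fintype.ofFinite G
  set n := Fintype.card Ω with hn
  set C := Subgroup.centralizer ({D.t} : Set G) with hC
  set I : Finset G := Finset.univ.image (fun g : G => g * D.t * g⁻¹) with hI
  have memI : ∀ {s : G}, s ∈ I ↔ IsConj D.t s := by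
    intro s
    simp only [hI, Finset.mem_image, Finset.mem_univ, true_and]
    exact isConj_iff.symm
  have hIinv : ∀ s ∈ I, s * s = 1 := by
    intro s hs
    obtain ⟨g, rfl⟩ := isConj_iff.1 (memI.1 hs)
    rw [show g * D.t * g⁻¹ * (g * D.t * g⁻¹) = g * (D.t * D.t) * g⁻¹ by group, D.mul_self,
      mul_one, mul_inv_cancel]
  have hcardI : Nat.card G = I.card * Nat.card C := by
    refine card_mul_card_image (fun g : G => g * D.t * g⁻¹) C fun g h => ?_
    rw [Subgroup.mem_centralizer_singleton_iff]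
    constructor
    · intro e
      calc g⁻¹ * h * D.t = g⁻¹ * (h * D.t * h⁻¹) * h := by group
        _ = g⁻¹ * (g * D.t * g⁻¹) * h := by rw [e]
        _ = D.t * (g⁻¹ * h) := by group
    · intro e
      calc g * D.t * g⁻¹ = g * (D.t * (g⁻¹ * h)) * h⁻¹ := by group
        _ = g * (g⁻¹ * h * D.t) * h⁻¹ := by rw [e]
        _ = h * D.t * h⁻¹ := by group
  set T : Ω → Ω → Finset G := fun x y => I.filter (fun s => s • x = y) with hT
  obtain ⟨a, ha⟩ := D.exists_moved
  set b := D.t • a with hb
  have hTconst : ∀ x y : Ω, x ≠ y → (T x y).card = (T a b).card := by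
    intro x y hxy
    obtain ⟨g, hgx, hgy⟩ := D.pair a b x y ha.symm hxy
    symm
    refine Finset.card_bij (fun s _ => g * s * g⁻¹) (fun s hs => ?_)
      (fun s _ r _ e => mul_left_cancel (mul_right_cancel e)) (fun s hs => ⟨g⁻¹ * s * g, ?_, by group⟩)
    · simp only [hT, Finset.mem_filter, memI] at hs ⊢
      refine ⟨hs.1.trans (isConj_iff.2 ⟨g, rfl⟩), ?_⟩
      rw [mul_smul, mul_smul, show g⁻¹ • x = a by rw [← hgx, inv_smul_smul], hs.2, hgy]
    · simp only [hT, Finset.mem_filter, memI] at hs ⊢
      refine ⟨hs.1.trans (isConj_iff.2 ⟨g⁻¹, by rw [inv_inv]⟩), ?_⟩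
      rw [mul_smul, mul_smul, hgx, hs.2, ← hgy, inv_smul_smul]
  have hswap : ∀ (s : G) (x y : Ω), s ∈ T x y → s • y = x := by
    intro s x y hs
    simp only [hT, Finset.mem_filter] at hs
    rw [← hs.2, ← mul_smul, hIinv s hs.1, one_smul]
  have hle : (T a b).card ≤ Nat.card (pairStab G a b) := by
    have hne : D.t ∈ T a b := by
      simp only [hT, Finset.mem_filter, memI]
      exact ⟨IsConj.refl _, hb.symm⟩
    rw [Nat.card_eq_fintype_card, ← Finset.card_univ]
    refine Finset.card_le_card_of_injOn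
      (fun s => if h : D.t⁻¹ * s ∈ pairStab G a b then (⟨_, h⟩ : pairStab G a b) else 1)
      (fun s _ => Finset.mem_coe.2 (Finset.mem_univ _)) ?_
    have hmem : ∀ s ∈ T a b, D.t⁻¹ * s ∈ pairStab G a b := by
      intro s hs
      have h2 := hswap s a b hs
      have h1 : s • a = b := (Finset.mem_filter.1 hs).2
      rw [mem_pairStab, mul_smul, mul_smul, h1, h2, inv_smul_eq_iff, inv_smul_eq_iff]
      exact ⟨hb, (hswap _ a b hne).symm⟩
    intro s hs r hr e
    simp only [dif_pos (hmem s hs), dif_pos (hmem r hr), Subtype.mk.injEq] at e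
    exact mul_left_cancel e
  -- double counting of pairs `(s, x)` with `s` moving `x`
  have hs1 : ∀ s ∈ I, (Finset.univ.filter (fun x : Ω => s • x ≠ x)).card = n - D.i := by
    intro s hs
    obtain ⟨g, rfl⟩ := isConj_iff.1 (memI.1 hs)
    have h1 : (Finset.univ.filter (fun x : Ω => (g * D.t * g⁻¹) • x = x)).card = D.i := by
      rw [← Set.ncard_coe_finset, ← D.card_t, Finset.coe_filter_univ,
        ← Set.ncard_image_of_injective (fix Ω D.t) (MulAction.injective g), ← fix_conj]
      rfl
    have h2 := Finset.card_filter_add_card_filter_not (s := (Finset.univ : Finset Ω))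
      (fun x => (g * D.t * g⁻¹) • x = x)
    rw [Finset.card_univ, h1] at h2
    simp only [ne_eq] at *
    omega
  have hs2 : ∀ x : Ω, (I.filter (fun s => s • x ≠ x)).card = (n - 1) * (T a b).card := by
    intro x
    rw [Finset.card_eq_sum_card_fiberwise (f := fun s => s • x) (t := Finset.univ.erase x)
      (fun s hs => by
        simp only [Finset.coe_filter, Set.mem_setOf_eq] at hs
        exact Finset.mem_coe.2 (Finset.mem_erase.2 ⟨hs.2, Finset.mem_univ _⟩)),
      Finset.sum_const_nat (m := (T a b).card), Finset.card_erase_of_mem (Finset.mem_univ _),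
      Finset.card_univ]
    intro y hy
    rw [← hTconst x y (Finset.ne_of_mem_erase hy).symm, hT]
    congr 1
    ext s
    simp only [Finset.mem_filter]
    constructor
    · rintro ⟨⟨h1, -⟩, h2⟩; exact ⟨h1, h2⟩
    · rintro ⟨h1, h2⟩
      exact ⟨⟨h1, h2 ▸ Finset.ne_of_mem_erase hy⟩, h2⟩
  have hdc : I.card * (n - D.i) = n * ((n - 1) * (T a b).card) := by
    have h := Finset.sum_card_bipartiteAbove_eq_sum_card_bipartiteBelow
      (fun (s : G) (x : Ω) => s • x ≠ x) (s := I) (t := Finset.univ)
    simp only [Finset.bipartiteAbove, Finset.bipartiteBelow] at h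
    rw [Finset.sum_congr rfl hs1, Finset.sum_congr rfl (fun x _ => hs2 x), Finset.sum_const,
      Finset.sum_const, Finset.card_univ, smul_eq_mul, smul_eq_mul] at h
    exact h
  obtain ⟨k, hk⟩ := D.card_centralizer_dvd
  rw [← hC, ← hn] at hk
  have hi := D.i_lt
  rw [← hn] at hi
  have hn2 : 1 < n := Fintype.one_lt_card_iff.2 ⟨a, b, ha.symm⟩
  have hG := D.card_group (a := a) (b := b) ha.symm
  rw [← hn, hcardI] at hG
  have hI0 : 0 < I.card := Finset.card_pos.2 ⟨D.t, memI.2 (IsConj.refl _)⟩
  have hw : 0 < Nat.card (pairStab G a b) := Nat.card_pos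
  have hN : (T a b).card = Nat.card (pairStab G a b) * k := by
    have : n * (n - 1) * (T a b).card = n * (n - 1) * (Nat.card (pairStab G a b) * k) := by
      rw [mul_assoc, ← hdc, hk, ← mul_assoc, ← mul_assoc, hG]
    exact Nat.eq_of_mul_eq_mul_left (Nat.mul_pos (by omega) (by omega)) this
  have hk0 : k ≠ 0 := by
    rintro rfl
    omega
  have hk1 : k = 1 := by
    have h : Nat.card (pairStab G a b) * k ≤ Nat.card (pairStab G a b) * 1 := by omega
    have := Nat.le_of_mul_le_mul_left h hw
    omega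
  subst hk1
  refine ⟨by omega, fun g x y hxy hgx hgy => ?_, fun x y hxy => ?_⟩
  · have hsub : T x y ⊆ Finset.univ.filter (fun g : G => g • x = y ∧ g • y = x) := by
      intro s hs
      exact Finset.mem_filter.2 ⟨Finset.mem_univ _, (Finset.mem_filter.1 hs).2, hswap s x y hs⟩
    have hcard : (Finset.univ.filter (fun g : G => g • x = y ∧ g • y = x)).card ≤ (T x y).card := by
      rw [hTconst x y hxy, hN, mul_one]
      obtain ⟨p, hpx, hpy⟩ := D.pair x y a b hxy ha.symm
      rw [Nat.card_eq_fintype_card, ← Finset.card_univ]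
      refine Finset.card_le_card_of_injOn
        (fun s => if h : p * (g⁻¹ * s) * p⁻¹ ∈ pairStab G a b then (⟨_, h⟩ : pairStab G a b) else 1)
        (fun s _ => Finset.mem_coe.2 (Finset.mem_univ _)) ?_
      have hmem : ∀ s : G, s • x = y → s • y = x → p * (g⁻¹ * s) * p⁻¹ ∈ pairStab G a b := by
        intro s h1 h2
        have e1 : p⁻¹ • a = x := by rw [← hpx, inv_smul_smul]
        have e2 : p⁻¹ • b = y := by rw [← hpy, inv_smul_smul]
        have e3 : g⁻¹ • y = x := by rw [← hgx, inv_smul_smul]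
        have e4 : g⁻¹ • x = y := by rw [← hgy, inv_smul_smul]
        simp only [mem_pairStab, mul_smul, e1, e2, h1, h2, e3, e4, hpx, hpy, and_self]
      intro s hs r hr e
      simp only [Finset.coe_filter, Finset.mem_univ, true_and, Set.mem_setOf_eq] at hs hr
      simp only [dif_pos (hmem s hs.1 hs.2), dif_pos (hmem r hr.1 hr.2), Subtype.mk.injEq] at e
      exact mul_left_cancel (mul_left_cancel (mul_right_cancel e))
    have := Finset.eq_of_subset_of_card_le hsub hcard
    have hg : g ∈ T x y := this ▸ Finset.mem_filter.2 ⟨Finset.mem_univ _, hgx, hgy⟩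
    exact memI.1 (Finset.mem_filter.1 hg).1
  · have h : (T x y).Nonempty := by
      rw [← Finset.card_pos, hTconst x y hxy, hN, mul_one]
      exact hw
    obtain ⟨s, hs⟩ := h
    exact ⟨s, memI.1 (Finset.mem_filter.1 hs).1, (Finset.mem_filter.1 hs).2, hswap s x y hs⟩

theorem swap_isConj {g : G} {x y : Ω} (hxy : x ≠ y) (hgx : g • x = y) (hgy : g • y = x) :
    IsConj D.t g := D.swap_isConj_and_card.2.1 g x y hxy hgx hgy

theorem exists_swap {x y : Ω} (hxy : x ≠ y) :
    ∃ g : G, g * g = 1 ∧ g • x = y ∧ g • y = x := by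
  obtain ⟨g, hg, h1, h2⟩ := D.swap_isConj_and_card.2.2 x y hxy
  refine ⟨g, ?_, h1, h2⟩
  obtain ⟨c, rfl⟩ := isConj_iff.1 hg
  rw [show c * D.t * c⁻¹ * (c * D.t * c⁻¹) = c * (D.t * D.t) * c⁻¹ by group, D.mul_self, mul_one,
    mul_inv_cancel]

theorem swap_sq {g : G} {x y : Ω} (hxy : x ≠ y) (hgx : g • x = y) (hgy : g • y = x) :
    g * g = 1 := by
  obtain ⟨c, rfl⟩ := isConj_iff.1 (D.swap_isConj hxy hgx hgy)
  rw [show c * D.t * c⁻¹ * (c * D.t * c⁻¹) = c * (D.t * D.t) * c⁻¹ by group, D.mul_self, mul_one,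
    mul_inv_cancel]

/-- An element interchanging two points inverts their stabiliser. -/
theorem inverts {g h : G} {x y : Ω} (hxy : x ≠ y) (hgx : g • x = y) (hgy : g • y = x)
    (hhx : h • x = x) (hhy : h • y = y) : g * h * g⁻¹ = h⁻¹ := by
  have h1 : g * g = 1 := D.swap_sq hxy hgx hgy
  have h2 : g * h * (g * h) = 1 :=
    D.swap_sq hxy (by rw [mul_smul, hhx, hgx]) (by rw [mul_smul, hhy, hgy])
  rw [inv_eq_of_mul_eq_one_left h1]
  refine eq_inv_of_mul_eq_one_left ?_
  simpa [mul_assoc] using h2

theorem pairStab_comm {a b : Ω} (hab : a ≠ b) {g h : G} (hg : g ∈ pairStab G a b)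
    (hh : h ∈ pairStab G a b) : Commute g h := by
  obtain ⟨s, -, h1, h2⟩ := D.exists_swap hab
  have e : ∀ k ∈ pairStab G a b, s * k * s⁻¹ = k⁻¹ := fun k hk =>
    D.inverts hab h1 h2 (mem_pairStab.1 hk).1 (mem_pairStab.1 hk).2
  have := e (g * h) (mul_mem hg hh)
  rw [show s * (g * h) * s⁻¹ = (s * g * s⁻¹) * (s * h * s⁻¹) by group, e g hg, e h hh,
    mul_inv_rev] at this
  have h3 := congrArg (fun z => z⁻¹) this
  simp only [mul_inv_rev, inv_inv] at h3
  exact h3.symm

theorem card_pairStab {a b c d : Ω} (hab : a ≠ b) (hcd : c ≠ d) :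
    Nat.card (pairStab G a b) = Nat.card (pairStab G c d) := by
  have h1 := D.card_group hab
  have h2 := D.card_group hcd
  have : 0 < Fintype.card Ω * (Fintype.card Ω - 1) := by
    have : 1 < Fintype.card Ω := Fintype.one_lt_card_iff.2 ⟨a, b, hab⟩
    exact Nat.mul_pos (by omega) (by omega)
  exact Nat.eq_of_mul_eq_mul_left this (h1.symm.trans h2)

/-- All involutions are conjugate to `t`. -/
theorem isConj_of_involution {u : G} (hu : orderOf u = 2) : IsConj D.t u := by
  have h2 : u * u = 1 := by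
    have := pow_orderOf_eq_one u
    rwa [hu, pow_two] at this
  obtain ⟨x, hx⟩ : ∃ x : Ω, u • x ≠ x := by
    by_contra! h
    rw [D.faith u h, orderOf_one] at hu
    omega
  exact D.swap_isConj hx.symm rfl (by rw [← mul_smul, h2, one_smul])

theorem fix_involution {u : G} (hu : orderOf u = 2) : (fix Ω u).ncard = D.i := by
  obtain ⟨c, rfl⟩ := isConj_iff.1 (D.isConj_of_involution hu)
  rw [fix_conj, Set.ncard_image_of_injective _ (MulAction.injective c), D.card_t]

/-- The centralizer of every involution has constant fixity. -/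
theorem fix_of_commute {u g : G} (hu : orderOf u = 2) (hc : Commute g u) (hg : g ≠ 1) :
    (fix Ω g).ncard = D.i := by
  obtain ⟨c, rfl⟩ := isConj_iff.1 (D.isConj_of_involution hu)
  have h := D.const (c⁻¹ * g * c) ?_ ?_
  · rw [show g = c * (c⁻¹ * g * c) * c⁻¹ by group, fix_conj,
      Set.ncard_image_of_injective _ (MulAction.injective c), h]
  · show c⁻¹ * g * c * D.t = D.t * (c⁻¹ * g * c)
    calc c⁻¹ * g * c * D.t = c⁻¹ * (g * (c * D.t * c⁻¹)) * c := by group
      _ = c⁻¹ * ((c * D.t * c⁻¹) * g) * c := by rw [hc.eq]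
      _ = D.t * (c⁻¹ * g * c) := by group
  · intro e
    exact hg (by rw [show g = c * (c⁻¹ * g * c) * c⁻¹ by group, e, mul_one, mul_inv_cancel])

theorem card_centralizer {u : G} (hu : orderOf u = 2) :
    Nat.card (Subgroup.centralizer ({u} : Set G)) = Fintype.card Ω - D.i := by
  obtain ⟨c, rfl⟩ := isConj_iff.1 (D.isConj_of_involution hu)
  rw [← D.swap_isConj_and_card.1]
  refine Nat.card_congr
    { toFun := fun g => ⟨c⁻¹ * g * c, ?_⟩
      invFun := fun g => ⟨c * g * c⁻¹, ?_⟩
      left_inv := fun g => Subtype.ext (by simp [mul_assoc])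
      right_inv := fun g => Subtype.ext (by simp [mul_assoc]) }
  · have := Subgroup.mem_centralizer_singleton_iff.1 g.2
    rw [Subgroup.mem_centralizer_singleton_iff]
    calc c⁻¹ * (g : G) * c * D.t = c⁻¹ * ((g : G) * (c * D.t * c⁻¹)) * c := by group
      _ = c⁻¹ * ((c * D.t * c⁻¹) * (g : G)) * c := by rw [this]
      _ = D.t * (c⁻¹ * g * c) := by group
  · have := Subgroup.mem_centralizer_singleton_iff.1 g.2
    rw [Subgroup.mem_centralizer_singleton_iff]
    calc c * (g : G) * c⁻¹ * (c * D.t * c⁻¹) = c * ((g : G) * D.t) * c⁻¹ := by group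
      _ = c * (D.t * (g : G)) * c⁻¹ := by rw [this]
      _ = c * D.t * c⁻¹ * (c * g * c⁻¹) := by group

/-- A commuting element of odd order fixes exactly the fixed points of the involution. -/
theorem fix_eq_of_odd {u h : G} (hu : orderOf u = 2) (hc : Commute h u) (hh : Odd (orderOf h))
    (h1 : h ≠ 1) : fix Ω h = fix Ω u := by
  obtain ⟨m, hm⟩ := hh
  have hu2 : u * u = 1 := by
    have := pow_orderOf_eq_one u
    rwa [hu, pow_two] at this
  have hp : ∀ k : ℕ, u ^ (2 * k) = 1 := fun k => by rw [pow_mul, pow_two, hu2, one_pow]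
  have e1 : (u * h) ^ (2 * m + 1) = u := by
    rw [hc.symm.mul_pow, pow_succ u, hp, one_mul, ← hm, pow_orderOf_eq_one, mul_one]
  have e2 : (u * h) ^ (2 * m + 2) = h := by
    rw [hc.symm.mul_pow, show 2 * m + 2 = 2 * (m + 1) by ring, hp, one_mul,
      show 2 * (m + 1) = (2 * m + 1) + 1 by ring, pow_succ, ← hm, pow_orderOf_eq_one, one_mul]
  have hne : u * h ≠ 1 := fun e => by
    rw [e, one_pow] at e2
    exact h1 e2.symm
  have hcu : Commute (u * h) u := (Commute.refl u).mul_left hc
  have c1 := D.fix_of_commute hu hcu hne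
  have s1 : fix Ω (u * h) = fix Ω u := Set.eq_of_subset_of_ncard_le
    (fun x hx => by
      have := fix_subset_fix_pow (u * h) (2 * m + 1) hx
      rwa [e1] at this)
    (by rw [c1, D.fix_involution hu]) (Set.toFinite _)
  have s2 : fix Ω (u * h) = fix Ω h := Set.eq_of_subset_of_ncard_le
    (fun x hx => by
      have := fix_subset_fix_pow (u * h) (2 * m + 2) hx
      rwa [e2] at this)
    (by rw [c1, D.fix_of_commute hu hc h1]) (Set.toFinite _)
  rw [← s2, s1]

end Count

end Ctx

end CfsgLib.ConstFix57
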