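import Cfsg.Agent.ConstFix57.Basic

/-!
At least two fixed points: then exactly two, and only the identity fixes three points.
-/

set_option autoImplicit false
set_option linter.unusedSectionVars false

namespace CfsgLib.ConstFix57

open MulAction

variable {G Ω : Type*} [Group G] [MulAction G Ω] [Finite G] [Fintype Ω]

namespace Ctx

variable (D : Ctx G Ω)
include D

theorem exists_involution_pairStab (h2 : 2 ≤ D.i) {a b : Ω} (hab : a ≠ b) :
    ∃ u ∈ pairStab G a b, orderOf u = 2 := by
  obtain ⟨x, hx, y, hy, hxy⟩ :=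
    (Set.one_lt_ncard (Set.toFinite (fix Ω D.t))).1 (by rw [D.card_t]; omega)
  obtain ⟨g, hga, hgb⟩ := D.pair x y a b hxy hab
  refine ⟨g * D.t * g⁻¹, mem_pairStab.2 ⟨?_, ?_⟩, ?_⟩
  · rw [← hga, mul_smul, mul_smul, inv_smul_smul, mem_fix.1 hx]
  · rw [← hgb, mul_smul, mul_smul, inv_smul_smul, mem_fix.1 hy]
  · rw [← D.ord]
    exact orderOf_injective (MulAut.conj g).toMonoidHom (MulEquiv.injective _) D.t

theorem odd_pairStab (h1 : D.i ≤ 1) {a b : Ω} (hab : a ≠ b) :
    Odd (Nat.card (pairStab G a b)) := by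
  rw [← Nat.not_even_iff_odd]
  intro he
  haveI : Fact (Nat.Prime 2) := ⟨Nat.prime_two⟩
  obtain ⟨u, hu⟩ := exists_prime_orderOf_dvd_card' (G := pairStab G a b) 2 he.two_dvd
  rw [← Subgroup.orderOf_coe] at hu
  have h : 2 ≤ (fix Ω (u : G)).ncard :=
    (Set.one_lt_ncard (Set.toFinite _)).2 ⟨a, (mem_pairStab.1 u.2).1, b, (mem_pairStab.1 u.2).2, hab⟩
  rw [D.fix_involution hu] at h
  omega

/-- With at least two fixed points, exactly two. -/
theorem i_eq_two (h2 : 2 ≤ D.i) : D.i = 2 := by
  classical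
  by_contra hne
  have h3 : 3 ≤ D.i := by omega
  haveI := Fintype.ofFinite G
  set n := Fintype.card Ω with hn
  obtain ⟨a, b, c, ha, hb, hc, hab, hac, hbc⟩ :=
    (Set.two_lt_ncard_iff (Set.toFinite (fix Ω D.t))).1 (by rw [D.card_t]; omega)
  set u := D.t with hu
  have hu2 : orderOf u = 2 := D.ord
  have huu : u * u = 1 := D.mul_self
  set C := Subgroup.centralizer ({u} : Set G) with hC
  set W := pairStab G a b with hW
  set A := C ⊓ stabilizer G a with hA
  have memC : ∀ {g : G}, g ∈ C ↔ Commute g u := Subgroup.mem_centralizer_singleton_iff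
  have hmemu : ∀ {x y : Ω}, x ∈ fix Ω u → y ∈ fix Ω u → u ∈ pairStab G x y :=
    fun hx hy => mem_pairStab.2 ⟨hx, hy⟩
  have hWA : ∀ {y : Ω}, y ∈ fix Ω u → a ≠ y → pairStab G a y ≤ A := fun hy hay g hg =>
    ⟨memC.2 (D.pairStab_comm hay hg (hmemu ha hy)), (mem_pairStab.1 hg).1⟩
  have hsw : ∀ {x y : Ω}, x ∈ fix Ω u → y ∈ fix Ω u → x ≠ y →
      ∃ s ∈ C, s • x = y ∧ s • y = x := by
    intro x y hx hy hxy
    obtain ⟨s, -, hs1, hs2⟩ := D.exists_swap hxy
    refine ⟨s, memC.2 ?_, hs1, hs2⟩
    have := D.inverts hxy hs1 hs2 hx hy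
    rw [inv_eq_of_mul_eq_one_left huu] at this
    exact mul_inv_eq_iff_eq_mul.1 this
  have hpres : ∀ {g : G}, g ∈ C → ∀ {x : Ω}, x ∈ fix Ω u → g • x ∈ fix Ω u := by
    intro g hg x hx
    rw [mem_fix, ← mul_smul, ← (memC.1 hg).eq, mul_smul, mem_fix.1 hx]
  have hcardC : Nat.card C = D.i * Nat.card A := by
    rw [card_mul_card_image (fun g : C => (g : G) • a) (A.subgroupOf C)]
    · congr 1
      · rw [← D.card_t, Set.ncard_eq_toFinset_card']
        congr 1
        ext x
        simp only [Finset.mem_image, Finset.mem_univ, true_and, Set.mem_toFinset]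
        constructor
        · rintro ⟨g, rfl⟩
          exact hpres g.2 ha
        · intro hx
          by_cases hxa : x = a
          · exact ⟨1, by rw [hxa]; exact one_smul _ a⟩
          · obtain ⟨s, hs, hs1, -⟩ := hsw ha hx (Ne.symm hxa)
            exact ⟨⟨s, hs⟩, hs1⟩
      · exact Nat.card_congr (Subgroup.subgroupOfEquivOfLe (inf_le_left : A ≤ C)).toEquiv
    · intro g h
      rw [Subgroup.mem_subgroupOf, hA, Subgroup.mem_inf, mem_stabilizer_iff, Subgroup.coe_mul,
        mul_smul, Subgroup.coe_inv, inv_smul_eq_iff]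
      exact ⟨fun e => ⟨C.mul_mem (C.inv_mem g.2) h.2, e.symm⟩, fun e => e.2.symm⟩
  have hodd : ∀ {g : G}, g ∈ C → Odd (orderOf g) → ∀ {x : Ω}, x ∈ fix Ω u → g • x = x := by
    intro g hg ho x hx
    by_cases h1 : g = 1
    · rw [h1, one_smul]
    · rw [← mem_fix, D.fix_eq_of_odd hu2 (memC.1 hg) ho h1]
      exact hx
  have hoddsyl : ∀ (K : Subgroup G), K ≤ C → ∀ (p : ℕ) [Fact p.Prime], p ≠ 2 →
      ∀ P : Sylow p K, (P : Subgroup K).map K.subtype ≤ W := by
    intro K hK p hp hp2 P
    rintro g ⟨k, hk, rfl⟩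
    obtain ⟨e, he⟩ := P.isPGroup' ⟨k, hk⟩
    have hd : orderOf (k : G) ∣ p ^ e := orderOf_dvd_of_pow_eq_one
      (by simpa using congrArg (fun z : (P : Subgroup K) => ((z : K) : G)) he)
    have ho : Odd (orderOf (k : G)) :=
      ((Fact.out : p.Prime).odd_of_ne_two hp2).pow.of_dvd_nat hd
    exact mem_pairStab.2 ⟨hodd (hK k.2) ho ha, hodd (hK k.2) ho hb⟩
  have hieven : Even D.i := by
    rcases Nat.eq_two_pow_or_exists_odd_prime_and_dvd D.i with ⟨k, hk⟩ | ⟨p, hp, hpi, hpodd⟩
    · rw [hk]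
      refine (Nat.even_pow).2 ⟨even_two, ?_⟩
      rintro rfl
      rw [pow_zero] at hk
      omega
    · haveI := Fact.mk hp
      exfalso
      obtain ⟨P⟩ : Nonempty (Sylow p C) := inferInstance
      have hp2 : p ≠ 2 := fun e => by subst e; exact absurd hpodd (by decide)
      have h1 : (P : Subgroup C).map C.subtype ≤ A :=
        (hoddsyl C le_rfl p hp2 P).trans (hWA hb hab)
      have h2 := Subgroup.card_dvd_of_le h1
      rw [← Nat.card_congr ((P : Subgroup C).equivMapOfInjective _ C.subtype_injective).toEquiv,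
        P.card_eq_multiplicity] at h2
      have h4 : p ^ ((Nat.card C).factorization p + 1) ∣ Nat.card C := by
        conv_rhs => rw [hcardC]
        rw [pow_succ, mul_comm]
        exact Nat.mul_dvd_mul hpi h2
      exact Nat.pow_succ_factorization_not_dvd Nat.card_pos.ne' hp h4
  have hWle : W ≤ A := hWA hb hab
  have hcC : Nat.card C = n - D.i := D.card_centralizer hu2
  have hin : D.i < n := D.i_lt
  have hAeven : Even (Nat.card A) :=
    even_iff_two_dvd.2 (hu2 ▸ Subgroup.orderOf_dvd_natCard A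
      (⟨memC.2 (Commute.refl u), ha⟩ : u ∈ A))
  have hG := D.card_group hab
  rw [← hn] at hG
  have hnA : n = D.i * (Nat.card A + 1) := by rw [mul_add, mul_one, ← hcardC, hcC]; omega
  have hAdvd : Nat.card A ∣ Nat.card W := by
    have h1 : Nat.card A ∣ (n - 1) * Nat.card W := by
      have h := Subgroup.card_subgroup_dvd_card C
      have h' : D.i * Nat.card A ∣ D.i * ((Nat.card A + 1) * ((n - 1) * Nat.card W)) := by
        rw [← hcardC, ← mul_assoc, ← mul_assoc, ← hnA, ← hG]
        exact h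
      refine Nat.Coprime.dvd_of_dvd_mul_left ?_ (Nat.dvd_of_mul_dvd_mul_left (by omega) h')
      exact (Nat.coprime_self_add_right.2 (Nat.coprime_one_right _))
    have hn1 : Odd (n - 1) :=
      Nat.Even.sub_odd (by omega) (hnA ▸ hieven.mul_right _) odd_one
    refine (Nat.dvd_iff_prime_pow_dvd_dvd _ _).2 fun p k hp hk => ?_
    haveI := Fact.mk hp
    by_cases hp2 : p = 2
    · subst hp2
      exact ((Nat.coprime_two_left.2 hn1).pow_left k).dvd_of_dvd_mul_left (hk.trans h1)
    · obtain ⟨P⟩ : Nonempty (Sylow p A) := inferInstance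
      have h2 := Subgroup.card_dvd_of_le (hoddsyl A inf_le_left p hp2 P)
      rw [← Nat.card_congr ((P : Subgroup A).equivMapOfInjective _ A.subtype_injective).toEquiv,
        P.card_eq_multiplicity] at h2
      exact (pow_dvd_pow p ((hp.pow_dvd_iff_le_factorization Nat.card_pos.ne').1 hk)).trans h2
  have hAW : ∀ {y : Ω}, y ∈ fix Ω u → a ≠ y → A = pairStab G a y := by
    intro y hy hay
    refine (Subgroup.eq_of_le_of_card_ge (hWA hy hay) ?_).symm
    rw [← D.card_pairStab hab hay]
    exact Nat.le_of_dvd Nat.card_pos hAdvd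
  have hwA : Nat.card W = Nat.card A := by rw [hW, ← hAW hb hab]
  have hAfix : ∀ {g : G}, g ∈ A → ∀ {y : Ω}, y ∈ fix Ω u → g • y = y := by
    intro g hg y hy
    by_cases hay : a = y
    · exact hay ▸ hg.2
    · exact (mem_pairStab.1 ((hAW hy hay) ▸ hg)).2
  -- the elements of `C` outside `A` interchange two points
  have hout : ∀ {g : G}, g ∈ C → g ∉ A → g * g = 1 ∧ ∀ h ∈ A, g * h * g⁻¹ = h⁻¹ := by
    intro g hg hgA
    have hga : g • a ≠ a := fun e => hgA ⟨hg, e⟩
    have hgau := hpres hg ha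
    obtain ⟨s, hs, hs1, hs2⟩ := hsw ha hgau hga.symm
    have hh : s⁻¹ * g ∈ A := ⟨C.mul_mem (C.inv_mem hs) hg, by
      show (s⁻¹ * g) • a = a
      rw [mul_smul, inv_smul_eq_iff, hs1]⟩
    have hgg : g • g • a = a := by
      have := hAfix hh hgau
      rw [mul_smul, inv_smul_eq_iff, hs2] at this
      exact this
    exact ⟨D.swap_sq hga.symm rfl hgg,
      fun h hh' => D.inverts hga.symm rfl hgg (hAfix hh' ha) (hAfix hh' hgau)⟩
  obtain ⟨s₁, hs₁, h11, h12⟩ := hsw ha hb hab
  obtain ⟨s₂, hs₂, h21, h22⟩ := hsw ha hc hac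
  have hs₁A : s₁ ∉ A := fun h => hab (h.2.symm.trans h11)
  have hs₂A : s₂ ∉ A := fun h => hac (h.2.symm.trans h21)
  have hs₁₂ : s₁ * s₂ ∉ A := fun h => by
    have h' : (s₁ * s₂) • a = a := h.2
    rw [mul_smul, h21] at h'
    exact hbc (smul_left_cancel s₁ (h12.trans h'.symm))
  have hexp : ∀ g ∈ C, g * g = 1 := by
    intro g hg
    by_cases hgA : g ∈ A
    · have e1 := (hout (C.mul_mem hs₁ hs₂) hs₁₂).2 g hgA
      rw [show s₁ * s₂ * g * (s₁ * s₂)⁻¹ = s₁ * (s₂ * g * s₂⁻¹) * s₁⁻¹ by group,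
        (hout hs₂ hs₂A).2 g hgA, (hout hs₁ hs₁A).2 g⁻¹ (A.inv_mem hgA), inv_inv] at e1
      calc g * g = g * g⁻¹ := by rw [← e1]
        _ = 1 := mul_inv_cancel g
    · exact (hout hg hgA).1
  have hCcomm : ∀ g ∈ C, ∀ h ∈ C, Commute g h := by
    intro g hg h hh
    have h1 := inv_eq_of_mul_eq_one_left (hexp _ (C.mul_mem hg hh))
    rw [mul_inv_rev, inv_eq_of_mul_eq_one_left (hexp g hg),
      inv_eq_of_mul_eq_one_left (hexp h hh)] at h1
    exact h1.symm
  -- every centralizer of an involution is elementary abelian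
  have habel : ∀ v : G, orderOf v = 2 → ∀ g, Commute g v →
      g * g = 1 ∧ ∀ h, Commute h v → Commute g h := by
    intro v hv g hg
    obtain ⟨k, rfl⟩ := isConj_iff.1 (D.isConj_of_involution hv)
    have hmem : ∀ {x : G}, Commute x (k * u * k⁻¹) → k⁻¹ * x * k ∈ C := by
      intro x hx
      rw [memC]
      show k⁻¹ * x * k * u = u * (k⁻¹ * x * k)
      calc k⁻¹ * x * k * u = k⁻¹ * (x * (k * u * k⁻¹)) * k := by group
        _ = k⁻¹ * ((k * u * k⁻¹) * x) * k := by rw [hx.eq]
        _ = u * (k⁻¹ * x * k) := by group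
    constructor
    · calc g * g = k * ((k⁻¹ * g * k) * (k⁻¹ * g * k)) * k⁻¹ := by group
        _ = 1 := by rw [hexp _ (hmem hg), mul_one, mul_inv_cancel]
    · intro h hh
      show g * h = h * g
      calc g * h = k * ((k⁻¹ * g * k) * (k⁻¹ * h * k)) * k⁻¹ := by group
        _ = k * ((k⁻¹ * h * k) * (k⁻¹ * g * k)) * k⁻¹ := by rw [(hCcomm _ (hmem hg) _ (hmem hh)).eq]
        _ = h * g := by group
  -- counting the involutions
  set I : Finset G := Finset.univ.filter (fun v => orderOf v = 2) with hI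
  have hcardI : Nat.card G = I.card * Nat.card C := by
    rw [card_mul_card_image (fun g : G => g * u * g⁻¹) C]
    · congr 2
      ext v
      simp only [hI, Finset.mem_image, Finset.mem_univ, true_and, Finset.mem_filter]
      constructor
      · rintro ⟨g, rfl⟩
        rw [← hu2]
        exact orderOf_injective (MulAut.conj g).toMonoidHom (MulEquiv.injective _) u
      · intro hv
        exact isConj_iff.1 (D.isConj_of_involution hv)
    · intro g h
      rw [memC]
      constructor
      · intro e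
        show g⁻¹ * h * u = u * (g⁻¹ * h)
        calc g⁻¹ * h * u = g⁻¹ * (h * u * h⁻¹) * h := by group
          _ = g⁻¹ * (g * u * g⁻¹) * h := by rw [e]
          _ = u * (g⁻¹ * h) := by group
      · intro e
        calc g * u * g⁻¹ = g * (u * (g⁻¹ * h)) * h⁻¹ := by group
          _ = g * (g⁻¹ * h * u) * h⁻¹ := by rw [e.eq]
          _ = h * u * h⁻¹ := by group
  have hdiv : Nat.card C - 1 ∣ I.card := by
    rw [Finset.card_eq_sum_card_image (fun v => Subgroup.centralizer ({v} : Set G)) I]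
    refine Finset.dvd_sum fun K hK => ?_
    obtain ⟨v, hv, rfl⟩ := Finset.mem_image.1 hK
    have hv2 := (Finset.mem_filter.1 hv).2
    have hset : I.filter (fun w => Subgroup.centralizer ({w} : Set G) =
        Subgroup.centralizer ({v} : Set G)) =
        (Finset.univ.filter (fun w => w ∈ Subgroup.centralizer ({v} : Set G))).erase 1 := by
      ext w
      simp only [Finset.mem_filter, Finset.mem_erase, Finset.mem_univ, true_and, hI]
      constructor
      · rintro ⟨hw, he⟩
        exact ⟨fun e => by rw [e, orderOf_one] at hw; omega,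
          he ▸ Subgroup.mem_centralizer_singleton_iff.2 rfl⟩
      · rintro ⟨hw1, hw⟩
        have hwv : Commute w v := Subgroup.mem_centralizer_singleton_iff.1 hw
        have hw2 : orderOf w = 2 := orderOf_eq_prime (by rw [pow_two]; exact (habel v hv2 w hwv).1) hw1
        refine ⟨hw2, (Subgroup.eq_of_le_of_card_ge (fun x hx => ?_) ?_).symm⟩
        · have hxv : Commute x v := Subgroup.mem_centralizer_singleton_iff.1 hx
          exact Subgroup.mem_centralizer_singleton_iff.2 ((habel v hv2 w hwv).2 x hxv).symm.eq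
        · rw [D.card_centralizer hv2, D.card_centralizer hw2]
    rw [hset, Finset.card_erase_of_mem (by simp), ← Fintype.card_subtype,
      ← Nat.card_eq_fintype_card, hcC, ← D.card_centralizer hv2]
  -- arithmetic
  rw [hwA, hcardI] at hG
  rw [hcardC] at hdiv hG
  have hA2 : 2 ≤ Nat.card A := by
    obtain ⟨r, hr⟩ := hAeven
    have : 0 < Nat.card A := Nat.card_pos
    omega
  generalize Nat.card A = w at hG hnA hdiv hA2
  have hIe : I.card = (w + 1) * (n - 1) := by
    have : I.card * (D.i * w) = ((w + 1) * (n - 1)) * (D.i * w) := by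
      rw [hG, hnA]; ring
    exact Nat.eq_of_mul_eq_mul_right (Nat.mul_pos (by omega) (by omega)) this
  have hm : 1 ≤ D.i * w := Nat.mul_pos (by omega) (by omega)
  rw [hIe, show n - 1 = (D.i * w - 1) + D.i by rw [hnA, mul_add, mul_one]; omega, mul_add,
    Nat.dvd_add_right (Dvd.intro_left _ rfl)] at hdiv
  have hcop : (D.i * w - 1).Coprime D.i := by
    have : (D.i * w - 1).Coprime (D.i * w) := by
      conv_rhs => rw [show D.i * w = (D.i * w - 1) + 1 by omega]
      exact Nat.coprime_self_add_right.2 (Nat.coprime_one_right _)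
    exact this.coprime_dvd_right (Dvd.intro w rfl)
  have h4 := Nat.le_of_dvd (by omega) (hcop.dvd_of_dvd_mul_right hdiv)
  have h5 : 3 * w ≤ D.i * w := Nat.mul_le_mul_right w h3
  omega

/-- With two fixed points only the identity fixes three points. -/
theorem three_of_two (h2 : D.i = 2) {g : G} {a b c : Ω} (hab : a ≠ b) (hbc : b ≠ c) (hac : a ≠ c)
    (ha : g • a = a) (hb : g • b = b) (hc : g • c = c) : g = 1 := by
  by_contra hg
  obtain ⟨u, hu, hu2⟩ := D.exists_involution_pairStab h2.ge hab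
  have hgu := D.pairStab_comm hab (mem_pairStab.2 ⟨ha, hb⟩) hu
  have h : 2 < (fix Ω g).ncard :=
    (Set.two_lt_ncard_iff (Set.toFinite _)).2 ⟨a, b, c, ha, hb, hc, hab, hac, hbc⟩
  rw [D.fix_of_commute hu2 hgu hg] at h
  omega

/-- Twice the order of a two-point stabiliser is at most `n - 2`. -/
theorem two_mul_pairStab_le (h2 : D.i = 2) {a b : Ω} (hab : a ≠ b) :
    2 * Nat.card (pairStab G a b) ≤ Fintype.card Ω - 2 := by
  obtain ⟨u, hu, hu2⟩ := D.exists_involution_pairStab h2.ge hab
  obtain ⟨s, -, hs1, hs2⟩ := D.exists_swap hab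
  have hW : pairStab G a b ≤ Subgroup.centralizer ({u} : Set G) := fun g hg =>
    Subgroup.mem_centralizer_singleton_iff.2 (D.pairStab_comm hab hg hu).eq
  have hsC : s ∈ Subgroup.centralizer ({u} : Set G) := by
    rw [Subgroup.mem_centralizer_singleton_iff]
    have := D.inverts hab hs1 hs2 (mem_pairStab.1 hu).1 (mem_pairStab.1 hu).2
    have huu : u * u = 1 := by
      have h := pow_orderOf_eq_one u
      rwa [hu2, pow_two] at h
    rw [inv_eq_of_mul_eq_one_left huu] at this
    exact mul_inv_eq_iff_eq_mul.1 this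
  have hlt : pairStab G a b < Subgroup.centralizer ({u} : Set G) :=
    lt_of_le_of_ne hW fun e => hab ((mem_pairStab.1 (e ▸ hsC)).1.symm.trans hs1)
  have hcard := D.card_centralizer hu2
  rw [h2] at hcard
  rw [← hcard]
  obtain ⟨k, hk⟩ := Subgroup.card_dvd_of_le hlt.le
  rw [hk, mul_comm 2]
  refine Nat.mul_le_mul le_rfl ?_
  by_contra! hk2
  interval_cases k
  · rw [mul_zero] at hk
    exact Nat.card_pos.ne' hk
  · rw [mul_one] at hk
    exact hlt.ne (Subgroup.eq_of_le_of_card_ge hlt.le hk.le)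

end Ctx

end CfsgLib.ConstFix57
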